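import Cfsg.Agent.H4.Tri
import Cfsg.Agent.H4.LBal
import Cfsg.Agent.H5.Gold
import Cfsg.Agent.L.ZStar
import Cfsg.Agent.H7.CyclicTwo
import Cfsg.Agent.H9.Loc1

/-! Pump-ups of 2-components; intrinsic 2-components with a unique involution. -/

set_option autoImplicit false
set_option linter.unusedVariables false
set_option linter.unusedSectionVars false

namespace IC

open Cfsg Subgroup FT H4 H5
open scoped commutatorElement

universe u

variable {G : Type u} [Group G] [Finite G]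

theorem pu0 {p : ℕ} [Fact p.Prime] {H K D : Subgroup G} {t : G}
    (hK : PCompIn p (H ⊓ Cen1 t) K) (hKE : K ≤ layerIn H) (hD : CompIn H D)
    (htH : t ∈ Nor H) (ht : t ∈ Nor D) : K ≤ D ∨ ⁅K, D⁆ = ⊥ := by
  have hKD : K ≤ Nor D := hKE.trans hD.layerIn_le_normalizer
  rcases hK.le_or_commutator_le (hD.sn.inf_right (Cen1 t)) with h | h
  · exact Or.inl (h.trans inf_le_left)
  right
  set C := layerIn H ⊓ centralizer (D : Set G)
  have hDC : ⁅D, C⁆ = ⊥ := by
    rw [commutator_comm]; exact commutator_eq_bot_iff_le_centralizer.mpr inf_le_right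
  have hKC : K ≤ Nor C := H4.le_normalizer_inf (hKE.trans Subgroup.le_normalizer)
    (H4.le_normalizer_centralizer hKD)
  have htC : zpowers t ≤ Nor C := H4.le_normalizer_inf
    (zpowers_le.mpr (normalizer_le_normalizer_layerIn H htH))
    (H4.le_normalizer_centralizer (zpowers_le.mpr ht))
  set K₁ := D ⊓ (K ⊔ C)
  have h1 : ⁅K₁, C⁆ = ⊥ := commutator_eq_bot_mono hDC inf_le_left le_rfl
  have h2 : K ≤ K₁ ⊔ C := fun k hk => by
    obtain ⟨d, hd, c, hc, e⟩ := (mem_sup_of_le_normalizer_right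
      (le_normalizer_of_commutator_eq_bot hDC)).mp (hD.layerIn_eq.le (hKE hk))
    rw [← e]
    exact mul_mem (mem_sup_left (mem_inf.mpr ⟨hd, by
      rw [eq_mul_inv_of_mul_eq e]
      exact mul_mem (mem_sup_left hk) (mem_sup_right (inv_mem hc))⟩)) (mem_sup_right hc)
  have step : ∀ W : Subgroup G, ⁅W, C⁆ = ⊥ → K ≤ W ⊔ C → K ≤ ⁅W, W⁆ ⊔ C := fun W e1 e2 => by
    refine hK.perfect.ge.trans ((commutator_mono e2 e2).trans ?_)
    rw [commutator_sup_of_commute e1 (by rwa [commutator_comm]) e1 e1]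
    exact sup_le_sup_left (commutator_le_self C) _
  have h3 := step _ h1 h2
  have h4 : ⁅K₁, zpowers t⁆ ≤ C := by
    refine (le_cMod_iff.mp (zpowers_le.mpr ⟨htC (mem_zpowers t), fun d hd => ?_⟩)).2
    obtain ⟨k, hk, c, hc, rfl⟩ := (mem_sup_of_le_normalizer_right hKC).mp hd.2
    have e := mem_centralizer_singleton_iff.mp (hK.le hk).2
    have : ⁅k * c, t⁆ = k * (c * (t * c⁻¹ * t⁻¹)) * k⁻¹ := by
      calc ⁅k * c, t⁆ = k * c * t * c⁻¹ * (t * k)⁻¹ := by simp only [commutatorElement_def]; group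
        _ = _ := by rw [← e]; group
    rw [this]
    exact conj_mem_of_le_normalizer hKC hk
      (mul_mem hc (conj_mem_of_le_normalizer htC (mem_zpowers t) (inv_mem hc)))
  have h5 : ⁅⁅K₁, zpowers t⁆, K₁⁆ = ⊥ := by
    rw [commutator_comm]; exact commutator_eq_bot_mono h1 le_rfl h4
  have h6 := commutator_commutator_eq_bot_of_rotate h5 (by rwa [commutator_comm (zpowers t)])
  rw [commutator_eq_bot_iff_le_centralizer, H4.centralizer_zpowers] at h6
  have h7 : ⁅⁅K₁, K₁⁆, C⁆ = ⊥ := commutator_eq_bot_mono h1 (commutator_le_self _) le_rfl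
  have h8 : ⁅⁅K₁, K₁⁆, ⁅K₁, K₁⁆⁆ ≤ pPrimeCoreIn p (H ⊓ Cen1 t) := commutator_le.2 fun w hw v hv => by
    obtain ⟨k, hk, c, hc, rfl⟩ := (mem_sup_of_le_normalizer_right hKC).mp
      (commutator_le_self _ hw).2
    have e := commutator_eq_bot_iff'.1 h7 v hv c hc
    have : ⁅k * c, v⁆ = ⁅k, v⁆ := by
      calc ⁅k * c, v⁆ = k * (c * v) * c⁻¹ * k⁻¹ * v⁻¹ := by simp only [commutatorElement_def]; group
        _ = _ := by rw [← e]; simp only [commutatorElement_def]; group
    rw [this]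
    exact h (commutator_mem_commutator hk ⟨(commutator_le_self _ hv).1, h6 hv⟩)
  have h9 := step _ h7 h3
  rw [sup_comm] at h9
  exact commutator_eq_bot_iff_le_centralizer.mpr ((hK.pqs.le_of_le_sup
    (le_normalizer_of_commutator_eq_bot (commutator_eq_bot_mono h7 (commutator_le_self _) le_rfl))
    (coprime_card_of_le h8 (coprime_card_pPrimeCoreIn p _)) h9).trans inf_le_right)

/-- the odd core -/
abbrev O (H : Subgroup G) : Subgroup G := pPrimeCoreIn 2 H

theorem copO (H : Subgroup G) : (Nat.card (O H)).Coprime 2 := coprime_card_pPrimeCoreIn 2 H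

theorem im_cen {H : Subgroup G} {t : G} (ht : t ∈ H) (tt : t * t = 1) :
    im (bar 2 H) (H ⊓ Cen1 t) = ⊤ ⊓ Cen1 (bar 2 H ⟨t, ht⟩) := by
  rw [im_inf_centralizer_singleton bar_ker ht (le_normalizer ht), im_self bar_surj]
  have : orderOf t ∣ 2 := orderOf_dvd_of_pow_eq_one (by rw [pow_two, tt])
  exact Nat.Coprime.coprime_dvd_left this (coprime_card_of_le inf_le_right (copO H)).symm

theorem pc_im {H M K : Subgroup G} (h : PCompIn 2 M K) (hM : M ≤ H) :
    PCompIn 2 (im (bar 2 H) M) (im (bar 2 H) K) := by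
  have e : PCompIn 2 (M.subgroupOf H) (K.subgroupOf H) := by
    rw [← pcompIn_map_iff_of_injective H.subtype_injective, map_subgroupOf_eq_of_le hM,
      map_subgroupOf_eq_of_le (h.le.trans hM)]
    exact h
  exact e.map_of_coprime _ (coprime_inf_ker_mk' _)

theorem pu1 {H K D : Subgroup G} {t : G} (ht : t ∈ H) (tt : t * t = 1)
    (hK : PCompIn 2 (H ⊓ Cen1 t) K) (hD : PCompIn 2 H D) (hn : t ∈ Nor D) :
    K ≤ D ∨ K ≤ cMod D (O H) := by
  have hP : IsPGroup 2 (zpowers t) := isPGroup_zpowers_of_pow (k := 1) (by rw [pow_one, pow_two, tt])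
  have e1 := lbal_in L.zstar hP (zpowers_le.2 ht)
  rw [H4.centralizer_zpowers] at e1
  have KL := hK.le_pLayerIn.trans e1
  have KH : K ≤ H := hK.le.trans inf_le_left
  have h1 := pc_im hK inf_le_left
  rw [im_cen ht tt] at h1
  have h2 : im (bar 2 H) K ≤ layerIn ⊤ := by
    refine (im_mono KL).trans ?_
    rw [layerIn_top, ← map_pLayer_mk', im, subgroupOf_map_subtype']
  rcases pu0 h1 h2 (compIn_bar hD) (le_normalizer (mem_top _))
    (im_le_normalizer (zpowers_le.2 hn) (mem_im_of_mem ht (mem_zpowers t))) with h | h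
  · exact Or.inl (hK.pqs.le_of_le_sup hD.pPrimeCoreIn_le_normalizer (copO H)
      ((im_le_im_iff bar_ker (pPrimeCoreIn_le 2 H) KH hD.le).1 h))
  · refine Or.inr (le_cMod_iff.2 ⟨KH.trans (le_normalizer_pPrimeCoreIn 2 H), ?_⟩)
    rw [commutator_le_iff_im bar_ker hD.le KH, ← commutator_eq_bot_iff_le_centralizer,
      commutator_comm]
    exact h

theorem dg0 {D : Subgroup G} {t : G} (tt : t * t = 1) (hD : CompIn ⊤ D)
    (h : ⁅D, conjS t D⁆ = ⊥) : CompIn (⊤ ⊓ Cen1 t) (diagHom D t h).range := by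
  have q := qs_range_diagHom h hD.qs
  have hD' := hD.conjS_of_mem (mem_top t)
  have s1 : SN ⊤ (D ⊔ conjS t D) := (SN.of_normal (sup_le hD.le_layerIn hD'.le_layerIn)
    (H4.le_normalizer_sup hD.layerIn_le_normalizer hD'.layerIn_le_normalizer)).trans (sn_layerIn ⊤)
  refine ⟨(SN.of_normal (range_diagHom_le tt h) fun u hu => mem_normalizer_of_conjS_le
    (le_range_diagHom tt h (q.conjS u).perfect ?_)).trans (s1.inf_right _), q⟩
  exact (conjS_mono u (range_diagHom_le tt h)).trans (conjS_eq_of_mem hu).le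

theorem dg {H D : Subgroup G} {t d : G} (ht : t ∈ H) (tt : t * t = 1) (hD : PCompIn 2 H D)
    (hne : conjS t D ≠ D) (hd : d ∈ D) (e1 : d * (t * d * t⁻¹) ∈ Cen1 t)
    (e2 : d * (t * d * t⁻¹) * (d * (t * d * t⁻¹)) = 1) (e3 : d * (t * d * t⁻¹) ≠ 1) :
    ∃ D0, PCompIn 2 (H ⊓ Cen1 t) D0 ∧ d * (t * d * t⁻¹) ∈ D0 := by
  set f := bar 2 H
  have hD' := hD.conjS_of_mem ht
  have c1 := (hD.eq_or_commutator_le hD').resolve_left hne.symm
  have c2 : ⁅im f D, conjS (f ⟨t, ht⟩) (im f D)⁆ = ⊥ := by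
    rw [commutator_le_iff_im bar_ker hD.le hD'.le, ← commutator_eq_bot_iff_le_centralizer] at c1
    have := im_map_conj (f := f) D ht
    exact (congrArg (fun X => ⁅im f D, X⁆) this).symm.trans c1
  have tt' : f ⟨t, ht⟩ * f ⟨t, ht⟩ = 1 := by
    rw [← map_mul]; exact (congrArg f (Subtype.ext tt)).trans (map_one f)
  have c3 := dg0 tt' (compIn_bar hD) c2
  have eH : d * (t * d * t⁻¹) ∈ H := mul_mem (hD.le hd) (hD'.le (conj_mem_conjS hd))
  have m : f ⟨_, eH⟩ ∈ (diagHom _ _ c2).range := ⟨⟨f ⟨d, hD.le hd⟩, mem_im_of_mem _ hd⟩, by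
    rw [diagHom_apply, ← map_inv, ← map_mul, ← map_mul, ← map_mul]; rfl⟩
  have oe : orderOf (d * (t * d * t⁻¹)) = 2 := orderOf_eq_two' e2 e3
  have o2 : orderOf (f ⟨_, eH⟩) = 2 := orderOf_map_of_coprime f coprime_ker_mk'
    (by rw [← oe]; exact (orderOf_coe _).symm)
  have c4 := c3.pcompIn (p := 2) (by
    have := Subgroup.orderOf_dvd_natCard _ m
    rwa [o2] at this)
  rw [← im_cen ht tt] at c4
  obtain ⟨c5, -⟩ := PCompIn.lift f c4 (coprime_inf_ker_mk' _)
  have c6 := c5.map_of_injective _ H.subtype_injective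
  rw [map_subgroupOf_eq_of_le inf_le_left] at c6
  refine ⟨_, c6, ⟨_, eH⟩, mem_pGenIn (k := 1) ⟨m, mem_subgroupOf.2 ⟨eH, e1⟩⟩ ?_, rfl⟩
  rw [pow_one, pow_two]
  exact Subtype.ext e2

end IC
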